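import Cfsg.Agent.H978.BD.Sing
import Cfsg.Agent.H105.SLExt
import Cfsg.Agent.H659.BFC

/-!
# Subgroups of `PSL(V)` of small index divisible by `p` (helper978, for S4932)
-/

set_option autoImplicit false

namespace Cfsg.Agent.H978.BD

open Module

section Quot

variable {G : Type*} [Group G] [Finite G]

/-- the index of the image modulo a central subgroup -/
theorem index_map_quot {Z H : Subgroup G} [Z.Normal] (h : ∀ g ∈ H, g ∈ Z → g = 1) :
    (H.map (QuotientGroup.mk' Z)).index * Nat.card Z = H.index := by
  have h1 : Nat.card (H.map (QuotientGroup.mk' Z)) = Nat.card H := by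
    refine (Nat.card_congr (Equiv.ofBijective (fun x : H => (⟨QuotientGroup.mk' Z x, Subgroup.mem_map_of_mem _ x.2⟩ :
      H.map (QuotientGroup.mk' Z))) ⟨?_, ?_⟩)).symm
    · intro a b hab
      have h2 : QuotientGroup.mk' Z (a : G) = QuotientGroup.mk' Z (b : G) := congrArg Subtype.val hab
      have h3 : (a : G)⁻¹ * b ∈ Z := QuotientGroup.eq.1 h2
      have h4 := h _ (mul_mem (inv_mem a.2) b.2) h3
      exact Subtype.ext (inv_mul_eq_one.1 h4)
    · rintro ⟨_, x, hx, rfl⟩
      exact ⟨⟨x, hx⟩, rfl⟩
  have h2 := (H.map (QuotientGroup.mk' Z)).card_mul_index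
  have h3 := H.card_mul_index
  have h4 := Subgroup.card_eq_card_quotient_mul_card_subgroup Z
  rw [h1] at h2
  have hpos : 0 < Nat.card H := Nat.card_pos
  apply Nat.eq_of_mul_eq_mul_left hpos
  rw [h3, h4, ← h2]
  ring

end Quot

section Act

variable {F V : Type*} [Field F] [Finite F] [AddCommGroup V] [Module F V] [FiniteDimensional F V]

theorem finite_sl : Finite (SpecialLinearGroup F V) := by
  have : Finite V := Module.finite_of_finite F
  have : Finite (V →ₗ[F] V) := Module.finite_of_finite F
  exact Finite.of_injective (fun g : SpecialLinearGroup F V => (g.1 : V →ₗ[F] V)) fun a b h => by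
    apply SpecialLinearGroup.ext
    intro x
    exact LinearMap.congr_fun h x

omit [Finite F] in
/-- central elements of the stabilizer of a nonzero vector -/
theorem eq_one_of_center {g : SpecialLinearGroup F V} (hg : g ∈ Subgroup.center (SpecialLinearGroup F V)) {v : V}
    (hv : v ≠ 0) (h : g.1 v = v) : g = 1 := by
  obtain ⟨r, -, hr⟩ := SpecialLinearGroup.mem_center_iff.1 hg
  have h1 : ∀ x, g.1 x = r • x := fun x => by
    have := LinearMap.congr_fun hr x
    simpa using this
  have h2 : r = 1 := by
    have h3 := h1 v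
    rw [h] at h3
    have h4 : (r - 1) • v = 0 := by rw [sub_smul, one_smul, ← h3, sub_self]
    rcases smul_eq_zero.1 h4 with h5 | h5
    · exact sub_eq_zero.1 h5
    · exact (hv h5).elim
  apply SpecialLinearGroup.ext
  intro x
  show g.1 x = x
  rw [h1, h2, one_smul]

/-- the stabilizer of a tuple -/
def stabT {k : ℕ} (ω : Fin k → V) : Subgroup (SpecialLinearGroup F V) where
  carrier := {g | ∀ i, g.1 (ω i) = ω i}
  one_mem' := fun _ => rfl
  mul_mem' := by
    intro a b ha hb i
    show a.1 (b.1 (ω i)) = ω i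
    rw [hb, ha]
  inv_mem' := by
    intro a ha i
    show a.1.symm (ω i) = ω i
    rw [LinearEquiv.symm_apply_eq]
    exact (ha i).symm

omit [Finite F] [FiniteDimensional F V] in
/-- the orbit of a tuple -/
theorem index_stabT {k : ℕ} (ω : Fin k → V) :
    (stabT (F := F) ω).index = (Set.range fun g : SpecialLinearGroup F V => fun i => g.1 (ω i)).ncard := by
  rw [Subgroup.index, ← Nat.card_coe_set_eq]
  refine Nat.card_congr (Equiv.ofBijective (Quotient.lift (fun g : SpecialLinearGroup F V =>
    (⟨fun i => g.1 (ω i), g, rfl⟩ : Set.range fun g : SpecialLinearGroup F V => fun i => g.1 (ω i))) ?_) ⟨?_, ?_⟩)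
  · intro a b hab
    have h1 : a⁻¹ * b ∈ stabT (F := F) ω := QuotientGroup.leftRel_apply.1 hab
    apply Subtype.ext
    funext i
    have h2 : a.1.symm (b.1 (ω i)) = ω i := h1 i
    rw [LinearEquiv.symm_apply_eq] at h2
    exact h2.symm
  · rintro ⟨a⟩ ⟨b⟩ hab
    apply Quotient.sound
    show (QuotientGroup.leftRel (stabT (F := F) ω)) a b
    rw [QuotientGroup.leftRel_apply]
    intro i
    show a.1.symm (b.1 (ω i)) = ω i
    rw [LinearEquiv.symm_apply_eq]
    exact (congrFun (congrArg Subtype.val hab) i).symm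
  · rintro ⟨_, g, rfl⟩
    exact ⟨QuotientGroup.mk g, rfl⟩

theorem index_le {k : ℕ} (ω : Fin k → V) : (stabT (F := F) ω).index ≤ Nat.card F ^ (finrank F V * k) := by
  have : Finite V := Module.finite_of_finite F
  rw [index_stabT, pow_mul, ← Module.natCard_eq_pow_finrank (K := F) (V := V)]
  have h1 : Nat.card (Fin k → V) = Nat.card V ^ k := by rw [Nat.card_fun, Nat.card_eq_fintype_card (α := Fin k), Fintype.card_fin]
  rw [← h1, ← Set.ncard_univ]
  exact Set.ncard_le_ncard (Set.subset_univ _) (Set.toFinite _)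

/-- an element of order `p` fixing no tuple of the orbit -/
theorem dvd_index {k p : ℕ} [hp : Fact p.Prime] {ω : Fin k → V} (hω : LinearIndependent F ω)
    {g : SpecialLinearGroup F V} (hg : g ^ p = 1) (h : ∀ η : Fin k → V, LinearIndependent F η → ∃ i, g.1 (η i) ≠ η i) :
    p ∣ (stabT (F := F) ω).index := by
  have := finite_sl (F := F) (V := V)
  have : Finite V := Module.finite_of_finite F
  rw [Subgroup.index]
  have hP : IsPGroup p (Subgroup.zpowers g) := by
    have h1 : orderOf g ∣ p := orderOf_dvd_of_pow_eq_one hg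
    rcases (Nat.dvd_prime hp.out).1 h1 with h2 | h2
    · exact IsPGroup.of_card (n := 0) (by rw [Nat.card_zpowers, h2, pow_zero])
    · exact IsPGroup.of_card (n := 1) (by rw [Nat.card_zpowers, h2, pow_one])
  have h1 := hP.card_modEq_card_fixedPoints (SpecialLinearGroup F V ⧸ stabT (F := F) ω)
  have h2 : Nat.card (MulAction.fixedPoints (Subgroup.zpowers g) (SpecialLinearGroup F V ⧸ stabT (F := F) ω)) = 0 := by
    rw [Nat.card_eq_zero]
    left
    constructor
    rintro ⟨x, hx⟩
    obtain ⟨a, rfl⟩ := QuotientGroup.mk_surjective x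
    have h3 := hx ⟨g, Subgroup.mem_zpowers g⟩
    have h4 : (QuotientGroup.mk (g * a) : SpecialLinearGroup F V ⧸ stabT (F := F) ω) = QuotientGroup.mk a := h3
    rw [QuotientGroup.eq] at h4
    have hη : LinearIndependent F fun i => a.1 (ω i) := hω.map' (a.1 : V →ₗ[F] V) (LinearEquiv.ker a.1)
    obtain ⟨i, hi⟩ := h _ hη
    apply hi
    have h5 : (g * a)⁻¹ * a ∈ stabT (F := F) ω := h4
    have h6 := h5 i
    have h7 : ((g * a) * ((g * a)⁻¹ * a)).1 (ω i) = (g * a).1 (ω i) := congrArg (g * a).1 h6
    rw [mul_inv_cancel_left] at h7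
    exact h7.symm
  rw [h2] at h1
  exact (Nat.modEq_zero_iff_dvd).1 h1

/-- `SL(V)` is transitive on the nonzero vectors -/
theorem index_one (hn : 2 ≤ finrank F V) {v : V} (hv : v ≠ 0) :
    (stabT (F := F) (fun _ : Fin 1 => v)).index = Nat.card F ^ finrank F V - 1 := by
  have : Finite V := Module.finite_of_finite F
  rw [index_stabT, ← Module.natCard_eq_pow_finrank (K := F) (V := V)]
  have h1 : (Set.range fun g : SpecialLinearGroup F V => fun _ : Fin 1 => g.1 v) =
      (fun w : V => fun _ : Fin 1 => w) '' {0}ᶜ := by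
    ext w
    constructor
    · rintro ⟨g, rfl⟩
      refine ⟨g.1 v, ?_, rfl⟩
      rw [Set.mem_compl_iff, Set.mem_singleton_iff]
      intro h
      exact hv ((LinearEquiv.map_eq_zero_iff g.1).1 h)
    · rintro ⟨w, hw, rfl⟩
      have hw' : w ≠ 0 := hw
      have ext2 : ∀ {v : V}, v ≠ 0 → ∃ v' : V, LinearIndependent F ![v', v] := by
        intro v hv
        have h2 : Submodule.span F {v} ≠ ⊤ := by
          intro h3
          have h4 := finrank_span_singleton (K := F) hv
          rw [h3, finrank_top] at h4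
          omega
        obtain ⟨v', hv'⟩ : ∃ v', v' ∉ Submodule.span F {v} := by
          by_contra hcon
          push Not at hcon
          exact h2 (eq_top_iff.2 fun y _ => hcon y)
        refine ⟨v', ?_⟩
        rw [LinearIndependent.pair_iff' (by
          rintro rfl
          exact hv' (zero_mem _))]
        intro a ha
        by_cases ha0 : a = 0
        · rw [ha0, zero_smul] at ha
          exact hv ha.symm
        · apply hv'
          rw [Submodule.mem_span_singleton]
          exact ⟨a⁻¹, by rw [← ha, smul_smul, inv_mul_cancel₀ ha0, one_smul]⟩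
      obtain ⟨v', h1⟩ := ext2 hv
      obtain ⟨w', h2⟩ := ext2 hw'
      obtain ⟨g, c, -, h3⟩ := Cfsg.Agent.H105.exists_sl h1 h2 0
      refine ⟨g, ?_⟩
      funext i
      exact h3 1 (by decide)
  rw [h1, Set.ncard_image_of_injective _ (fun a b h => congrFun h 0), Set.ncard_compl, Set.ncard_singleton]

end Act

end Cfsg.Agent.H978.BD
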