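import Mathlib

/-!
# Arithmetic for the rows `PSL_n(q)` of S4932 (helper978)
-/

set_option autoImplicit false

namespace Cfsg.Agent.H978.BD

theorem ineq_two {q o C α β c a b : ℕ} (hq : 2 ≤ q) (ho : o ≤ q ^ 2) (hC : C ≤ q ^ c) (hα : α < q ^ a)
    (hβ : q ^ b ≤ β) (h : 5 + c + a ≤ b) : o * (1 + o * C * α) < β := by
  have h1 : o * C ≤ q ^ (2 + c) := by rw [pow_add]; exact Nat.mul_le_mul ho hC
  have h2 : 1 + o * C * α ≤ q ^ (2 + c + a) := by
    have h3 : o * C * α ≤ q ^ (2 + c) * (q ^ a - 1) := Nat.mul_le_mul h1 (by omega)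
    have h4 : q ^ (2 + c) * (q ^ a - 1) + q ^ (2 + c) = q ^ (2 + c + a) := by
      obtain ⟨k, hk⟩ : ∃ k, q ^ a = k + 1 := ⟨q ^ a - 1, by omega⟩
      rw [pow_add q (2 + c) a, hk, Nat.add_sub_cancel]
      ring
    have h5 : 0 < q ^ (2 + c) := by positivity
    omega
  calc o * (1 + o * C * α) ≤ q ^ 2 * q ^ (2 + c + a) := Nat.mul_le_mul ho h2
    _ = q ^ (4 + c + a) := by rw [← pow_add]; congr 1; ring
    _ < q ^ b := Nat.pow_lt_pow_right (by omega) (by omega)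
    _ ≤ β := hβ

theorem ineq_one {q g d C α β c a b : ℕ} (hq : 2 ≤ q) (hg : g ≤ q) (hd : d ≤ q - 1) (hC : C ≤ q ^ c)
    (hα : α * d < q ^ a) (hβ : q ^ b ≤ β) (h : 3 + c + a ≤ b) : g * d * (1 + g * d * C * α) < β := by
  have h1 : g * C ≤ q ^ (1 + c) := by rw [pow_add, pow_one]; exact Nat.mul_le_mul hg hC
  have h2 : 1 + g * d * C * α ≤ q ^ (1 + c + a) := by
    have h3 : g * C * (α * d) ≤ q ^ (1 + c) * (q ^ a - 1) := Nat.mul_le_mul h1 (by omega)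
    have h4 : q ^ (1 + c) * (q ^ a - 1) + q ^ (1 + c) = q ^ (1 + c + a) := by
      obtain ⟨k, hk⟩ : ∃ k, q ^ a = k + 1 := ⟨q ^ a - 1, by omega⟩
      rw [pow_add q (1 + c) a, hk, Nat.add_sub_cancel]
      ring
    have h5 : 0 < q ^ (1 + c) := by positivity
    have h6 : g * d * C * α = g * C * (α * d) := by ring
    omega
  have h3 : g * d < q ^ 2 := by
    have h4 : g * d ≤ q * (q - 1) := Nat.mul_le_mul hg hd
    have h5 : q * (q - 1) < q ^ 2 := by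
      rw [pow_two]
      exact Nat.mul_lt_mul_of_pos_left (by omega) (by omega)
    omega
  calc g * d * (1 + g * d * C * α) ≤ g * d * q ^ (1 + c + a) := Nat.mul_le_mul_left _ h2
    _ < q ^ 2 * q ^ (1 + c + a) := Nat.mul_lt_mul_of_pos_right h3 (by positivity)
    _ = q ^ (3 + c + a) := by rw [← pow_add]; congr 1; ring
    _ ≤ q ^ b := Nat.pow_le_pow_right (by omega) h
    _ ≤ β := hβ

/-- exponents, `p ∣ q - 1` -/
theorem exp_one {n p x m : ℕ} (hp : 3 ≤ p) (hn : p ^ 2 ≤ n) (hx : 1 ≤ x) (hxp : x ≤ p) (hm : n = m + x) :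
    3 + (m + x ^ 2) + n ≤ (n - 1) * (n - 2) / 2 := by
  rw [Nat.le_div_iff_mul_le (by norm_num)]
  have h9 : 9 ≤ n := by nlinarith
  obtain ⟨k, rfl⟩ : ∃ k, n = k + 9 := ⟨n - 9, by omega⟩
  have h1 : x ^ 2 ≤ x + (p ^ 2 - p) := by
    have h2 : x ^ 2 - x ≤ p ^ 2 - p := by
      rw [pow_two, pow_two]
      have e1 : x * x - x = x * (x - 1) := by rw [Nat.mul_sub, mul_one]
      have e2 : p * p - p = p * (p - 1) := by rw [Nat.mul_sub, mul_one]
      rw [e1, e2]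
      exact Nat.mul_le_mul hxp (by omega)
    omega
  have h2 : m + x ^ 2 ≤ 2 * k + 15 := by
    have h3 : p ≤ p ^ 2 := by nlinarith
    omega
  have e : (k + 9 - 1) * (k + 9 - 2) = k * k + 15 * k + 56 := by
    have e1 : k + 9 - 1 = k + 8 := by omega
    have e2 : k + 9 - 2 = k + 7 := by omega
    rw [e1, e2]; ring
  rw [e]
  nlinarith

/-- exponents, `p ∤ q - 1`, `x = 0` -/
theorem exp_two {w e : ℕ} (he : 2 ≤ e) (hw : 9 ≤ w) :
    5 + (w * e + 0 ^ 2) + (w * e) * (0 + 1) ≤ e * ((w - 1) * (w - 1 - 1) / 2) := by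
  have h1 : (w - 1) * (w - 1 - 1) / 2 * 2 = (w - 1) * (w - 1 - 1) :=
    Nat.div_mul_cancel (Nat.even_mul_pred_self (w - 1)).two_dvd
  obtain ⟨k, rfl⟩ : ∃ k, w = k + 9 := ⟨w - 9, by omega⟩
  have e1 : k + 9 - 1 = k + 8 := by omega
  have e2 : k + 8 - 1 = k + 7 := by omega
  rw [e1, e2] at h1 ⊢
  set t := (k + 8) * (k + 7) / 2
  have h2 : 2 * (5 + ((k + 9) * e + 0 ^ 2) + ((k + 9) * e) * (0 + 1)) ≤ 2 * (e * t) := by
    have h3 : 2 * (e * t) = e * ((k + 8) * (k + 7)) := by rw [← h1]; ring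
    rw [h3]
    nlinarith [Nat.zero_le (k * e), Nat.zero_le (k * k * e)]
  omega

/-- exponents, `p ∤ q - 1`, `x > 0` -/
theorem exp_three {w e x : ℕ} (he : 2 ≤ e) (hw : (e + 1) ^ 2 ≤ w) (hx : x + 1 ≤ e) :
    5 + (w * e + x ^ 2) + (w * e + x) * (x + 1) ≤ e * (w * (w - 1) / 2) := by
  have h1 : w * (w - 1) / 2 * 2 = w * (w - 1) := Nat.div_mul_cancel (Nat.even_mul_pred_self w).two_dvd
  obtain ⟨k, hk⟩ : ∃ k, w = k + (e + 1) ^ 2 := ⟨w - (e + 1) ^ 2, by omega⟩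
  obtain ⟨y, rfl⟩ : ∃ y, e = y + x + 1 := ⟨e - x - 1, by omega⟩
  set e := y + x + 1 with hed
  have hw1 : e ^ 2 + 2 * e ≤ w - 1 := by
    have : (e + 1) ^ 2 = e ^ 2 + 2 * e + 1 := by ring
    omega
  set t := w * (w - 1) / 2
  have h2 : 2 * (5 + (w * e + x ^ 2) + (w * e + x) * (x + 1)) ≤ 2 * (e * t) := by
    have h3 : 2 * (e * t) = e * (w * (w - 1)) := by rw [← h1]; ring
    rw [h3]
    have h4 : e * (w * (e ^ 2 + 2 * e)) ≤ e * (w * (w - 1)) :=
      Nat.mul_le_mul_left _ (Nat.mul_le_mul_left _ hw1)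
    refine le_trans ?_ h4
    have h5 : x + 1 ≤ e := by omega
    have h6 : 5 + (w * e + x ^ 2) + (w * e + x) * (x + 1) ≤ 5 + (w * e + e ^ 2) + (w * e + e) * e := by
      have h7 : x ^ 2 ≤ e ^ 2 := Nat.pow_le_pow_left (by omega) 2
      have h8 : (w * e + x) * (x + 1) ≤ (w * e + e) * e := Nat.mul_le_mul (by omega) h5
      omega
    have h7 : 2 * (5 + (w * e + e ^ 2) + (w * e + e) * e) ≤ e * (w * (e ^ 2 + 2 * e)) := by
      have h9 : e * (w * (e ^ 2 + 2 * e)) = w * e * (e ^ 2 - 2) + w * e * (2 * e + 2) := by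
        have h10 : 2 ≤ e ^ 2 := by nlinarith
        zify [h10]
        ring
      rw [h9]
      have h10 : 2 * (5 + (w * e + e ^ 2) + (w * e + e) * e) = w * e * (2 * e + 2) + (10 + 4 * e ^ 2) := by ring
      rw [h10]
      have h11 : 10 + 4 * e ^ 2 ≤ w * e * (e ^ 2 - 2) := by
        have h12 : 2 ≤ e ^ 2 - 2 := by
          have : 4 ≤ e ^ 2 := by nlinarith
          omega
        have h13 : (e + 1) ^ 2 * e * 2 ≤ w * e * (e ^ 2 - 2) := Nat.mul_le_mul (Nat.mul_le_mul_right _ hw) h12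
        refine le_trans ?_ h13
        nlinarith
      omega
    omega
  omega

end Cfsg.Agent.H978.BD
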