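import Cfsg.Agent.H589.BD.Core
import Cfsg.Agent.H625.FongRank

/-!
# Characters of the principal block over characters of the principal block of a subgroup (helper978, for S4932)
-/

set_option autoImplicit false

open Cfsg

namespace Cfsg.Agent.H978.BD

open Cfsg.Agent.H589.BD Cfsg.Agent.Blocks.Blau Cfsg.Agent.OddOrderCharacters Cfsg.Agent.Characters.Core
open Cfsg.Agent.OddOrderCharacters.IndRes

universe u v

variable {G : Type u} [Group G] [Fintype G]

theorem sum_indFun (T : Subgroup G) [Fintype T] (f : T → ℂ) :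
    ∑ g : G, indFun T f g = (T.index : ℂ) * ∑ t : T, f t := by
  have h1 : classInner (indFun T f) (fun _ : G => (1 : ℂ)) = classInner f (res T (fun _ : G => (1 : ℂ))) :=
    classInner_indFun_left T f (fun _ _ => rfl)
  have h2 : ((Nat.card G : ℂ))⁻¹ * ∑ g : G, indFun T f g = ((Nat.card T : ℂ))⁻¹ * ∑ t : T, f t := by
    have e1 : classInner (indFun T f) (fun _ : G => (1 : ℂ)) = ((Nat.card G : ℂ))⁻¹ * ∑ g : G, indFun T f g := by
      unfold classInner
      simp
    have e2 : classInner f (res T (fun _ : G => (1 : ℂ))) = ((Nat.card T : ℂ))⁻¹ * ∑ t : T, f t := by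
      unfold classInner
      congr 1
      refine Finset.sum_congr rfl fun t _ => ?_
      have : res T (fun _ : G => (1 : ℂ)) t = 1 := rfl
      rw [this, map_one, mul_one]
    rw [← e1, ← e2, h1]
  have hG : (Nat.card G : ℂ) ≠ 0 := by exact_mod_cast Nat.card_pos.ne'
  have hT : (Nat.card T : ℂ) ≠ 0 := by exact_mod_cast Nat.card_pos.ne'
  have h3 : (Nat.card G : ℂ) = Nat.card T * T.index := by exact_mod_cast (T.card_mul_index).symm
  rw [inv_mul_eq_iff_eq_mul₀ hG] at h2
  rw [h2, h3]
  field_simp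

variable {p : ℕ} [hp : Fact p.Prime]

/-- A class function whose sum over the `p`-regular elements is nonzero has a constituent in the principal block. -/
theorem exists_of_sum' {Ψ : G → ℂ} (hcl : IsClassFunction G Ψ) (h : ∑ g : G, regPart p Ψ g ≠ 0) :
    ∃ χ : IrrCharacter G, InB0 p χ ∧ classInner Ψ (χ : G → ℂ) ≠ 0 := by
  classical
  by_contra hcon
  push Not at hcon
  have hfin : Finite (IrrCharacter G) := finite_irr
  have hft : Fintype (IrrCharacter G) := Fintype.ofFinite _
  apply h
  have h2 := classFunction_eq_sum hcl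
  have h4 : ∀ g : G, regPart p Ψ g =
      ∑ χ : IrrCharacter G, classInner Ψ (χ : G → ℂ) * regPart p (χ : G → ℂ) g := by
    intro g
    by_cases hg : p ∣ orderOf g
    · rw [regPart_of_dvd hg, Finset.sum_eq_zero]
      intro i _
      rw [regPart_of_dvd hg, mul_zero]
    · rw [regPart_of_not_dvd hg]
      conv_lhs => rw [h2]
      rw [Finset.sum_apply]
      refine Finset.sum_congr rfl fun χ _ => ?_
      rw [regPart_of_not_dvd hg]
      rfl
  rw [Finset.sum_congr rfl fun g _ => h4 g, Finset.sum_comm]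
  refine Finset.sum_eq_zero fun χ _ => ?_
  rw [← Finset.mul_sum]
  by_cases hχ : ∑ g : G, regPart p (χ : G → ℂ) g = 0
  · rw [hχ, mul_zero]
  · rw [hcon χ ((InB0.iff χ).2 hχ), zero_mul]

theorem exists_over_sub (T : Subgroup G) [Fintype T] (θ : IrrCharacter T) (h : InB0 p θ) :
    ∃ χ : IrrCharacter G, InB0 p χ ∧ classInner (res T (χ : G → ℂ)) (θ : T → ℂ) ≠ 0 := by
  have hcl : IsClassFunction G (indFun T (θ : T → ℂ)) :=
    isCharacter_isClassFunction (isCharacter_indFun T (isIrr_isCharacter θ.2))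
  obtain ⟨χ, h1, h2⟩ := exists_of_sum' (p := p) hcl (by
    rw [Cfsg.Agent.H625.FongRank.regPart_indFun, sum_indFun]
    refine mul_ne_zero ?_ ((InB0.iff θ).1 h)
    exact_mod_cast Subgroup.index_ne_zero_of_finite)
  refine ⟨χ, h1, ?_⟩
  rw [classInner_indFun_left T _ (isIrr_isClassFunction χ.2)] at h2
  intro h3
  apply h2
  rw [← classInner_conj_symm, h3, map_zero]

/-- **A character of `B₀(G)` over a character of `B₀(H)`.** -/
theorem exists_over {G : Type u} [Group G] [Finite G] {H : Type v} [Group H] [Finite H] (f : H →* G)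
    (hf : Function.Injective f) (φ : IrrCharacter H) (h : InB0 p φ) :
    ∃ χ : IrrCharacter G, InB0 p χ ∧ charDegree (φ : H → ℂ) ≤ charDegree (χ : G → ℂ) := by
  classical
  have := Fintype.ofFinite G
  have := Fintype.ofFinite f.range
  let e : f.range ≃* H := (MonoidHom.ofInjective hf).symm
  obtain ⟨χ, h1, h2⟩ := exists_over_sub f.range (tr e φ) (h.tr e)
  refine ⟨χ, h1, ?_⟩
  rw [← charDegree_tr e φ]
  have hfin : Finite (IrrCharacter f.range) := finite_irr
  have := Fintype.ofFinite (IrrCharacter f.range)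
  have hc : IsCharacter f.range (res f.range (χ : G → ℂ)) := isCharacter_comp f.range.subtype (isIrr_isCharacter χ.2)
  obtain ⟨m, hm⟩ := exists_nat_comb hc
  have hm' : classInner (res f.range (χ : G → ℂ)) (tr e φ : f.range → ℂ) = m (tr e φ) := by
    rw [hm, classInner_sum_nsmul_irr]
  have hm0 : m (tr e φ) ≠ 0 := by
    intro h3
    rw [hm', h3, Nat.cast_zero] at h2
    exact h2 rfl
  have h4 : (charDegree (χ : G → ℂ) : ℂ) = ∑ ψ : IrrCharacter f.range, (m ψ : ℂ) * charDegree (ψ : f.range → ℂ) := by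
    have h5 := congrFun hm 1
    rw [Finset.sum_apply] at h5
    have h6 : res f.range (χ : G → ℂ) 1 = (χ : G → ℂ) 1 := rfl
    rw [h6, Cfsg.Agent.Blocks.Basic.irr_one_eq_charDegree χ.2] at h5
    rw [h5]
    refine Finset.sum_congr rfl fun ψ _ => ?_
    rw [Pi.smul_apply, nsmul_eq_mul, Cfsg.Agent.Blocks.Basic.irr_one_eq_charDegree ψ.2]
  have h5 : charDegree (χ : G → ℂ) = ∑ ψ : IrrCharacter f.range, m ψ * charDegree (ψ : f.range → ℂ) := by
    exact_mod_cast h4
  rw [h5]
  calc charDegree (tr e φ : f.range → ℂ) ≤ m (tr e φ) * charDegree (tr e φ : f.range → ℂ) :=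
        Nat.le_mul_of_pos_left _ (Nat.pos_of_ne_zero hm0)
    _ ≤ _ := Finset.single_le_sum (f := fun ψ : IrrCharacter f.range => m ψ * charDegree (ψ : f.range → ℂ))
        (fun _ _ => Nat.zero_le _) (Finset.mem_univ _)

end Cfsg.Agent.H978.BD
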