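import Cfsg.Agent.H978.BD.Alpha

/-!
# Elements and subgroups of `PSL_n(F)` (helper978, for S4932)
-/

set_option autoImplicit false

namespace Cfsg.Agent.H978.BD

open Module

section Good

/-- there is an element of order divisible by `p` with a small centralizer -/
def GoodU (S : Type*) [Group S] (p B : ℕ) : Prop :=
  ∃ u : S, p ∣ orderOf u ∧ Nat.card (Subgroup.centralizer ({u} : Set S)) ≤ B

/-- there is a subgroup of small index divisible by `p` -/
def GoodH (S : Type*) [Group S] (p d B : ℕ) : Prop := ∃ H : Subgroup S, p ∣ H.index ∧ H.index * d ≤ B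

theorem GoodU.congr {S T : Type*} [Group S] [Group T] (e : S ≃* T) {p B : ℕ} (h : GoodU S p B) : GoodU T p B := by
  obtain ⟨u, h1, h2⟩ := h
  refine ⟨e u, by rw [MulEquiv.orderOf_eq]; exact h1, ?_⟩
  have h3 : (Subgroup.centralizer ({u} : Set S)).map e.toMonoidHom = Subgroup.centralizer ({e u} : Set T) := by
    ext y
    rw [Subgroup.mem_centralizer_singleton_iff]
    constructor
    · rintro ⟨x, hx, rfl⟩
      rw [SetLike.mem_coe, Subgroup.mem_centralizer_singleton_iff] at hx
      show e x * e u = e u * e x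
      rw [← map_mul, hx, map_mul]
    · intro hy
      refine ⟨e.symm y, ?_, e.apply_symm_apply y⟩
      rw [SetLike.mem_coe, Subgroup.mem_centralizer_singleton_iff]
      apply e.injective
      rw [map_mul, map_mul, e.apply_symm_apply, hy]
  rw [← h3, Subgroup.card_map_of_injective e.injective]
  exact h2

theorem GoodH.congr {S T : Type*} [Group S] [Group T] (e : S ≃* T) {p d B : ℕ} (h : GoodH S p d B) :
    GoodH T p d B := by
  obtain ⟨H, h1, h2⟩ := h
  refine ⟨H.comap e.symm.toMonoidHom, ?_, ?_⟩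
  · rw [Subgroup.index_comap_of_surjective _ e.symm.surjective]; exact h1
  · rw [Subgroup.index_comap_of_surjective _ e.symm.surjective]; exact h2

theorem map_center_eq {S T : Type*} [Group S] [Group T] (e : S ≃* T) :
    (Subgroup.center S).map e.toMonoidHom = Subgroup.center T := by
  ext y
  rw [Subgroup.mem_center_iff]
  constructor
  · rintro ⟨x, hx, rfl⟩ z
    have h1 := Subgroup.mem_center_iff.1 hx (e.symm z)
    show z * e x = e x * z
    rw [← e.apply_symm_apply z, ← map_mul, h1, map_mul]
  · intro hy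
    refine ⟨e.symm y, ?_, e.apply_symm_apply y⟩
    rw [SetLike.mem_coe, Subgroup.mem_center_iff]
    intro x
    apply e.injective
    rw [map_mul, map_mul, e.apply_symm_apply, hy]

/-- the isomorphism of the quotients by the centers -/
noncomputable def quotEquiv {S T : Type*} [Group S] [Group T] (e : S ≃* T) :
    S ⧸ Subgroup.center S ≃* T ⧸ Subgroup.center T :=
  QuotientGroup.congr _ _ e (map_center_eq e)

/-- `PSL_n(F)` -/
noncomputable def pslEquiv {F V : Type*} [Field F] [AddCommGroup V] [Module F V] {n : ℕ} (b : Basis (Fin n) F V) :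
    Matrix.ProjectiveSpecialLinearGroup (Fin n) F ≃* SpecialLinearGroup F V ⧸ Subgroup.center (SpecialLinearGroup F V) :=
  quotEquiv (Matrix.SpecialLinearGroup.toLin_equiv b)

end Good

section Main

variable {F : Type*} [Field F] [Finite F]

/-- scalars of order dividing `q - 1` -/
theorem center_pow {V : Type*} [AddCommGroup V] [Module F V] [FiniteDimensional F V]
    {g : SpecialLinearGroup F V} (hg : g ∈ Subgroup.center (SpecialLinearGroup F V)) (hV : 0 < finrank F V) :
    g ^ (Nat.card F - 1) = 1 := by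
  obtain ⟨r, -, hr⟩ := SpecialLinearGroup.mem_center_iff.1 hg
  have h1 : ∀ x, g.1 x = r • x := fun x => by
    have := LinearMap.congr_fun hr x
    simpa using this
  have hr0 : r ≠ 0 := by
    rintro rfl
    have : Nontrivial V := Module.nontrivial_of_finrank_pos hV
    obtain ⟨v, hv⟩ := exists_ne (0 : V)
    have h2 := h1 v
    rw [zero_smul] at h2
    exact hv ((LinearEquiv.map_eq_zero_iff g.1).1 h2)
  have h2 : ∀ k : ℕ, ∀ x, (g ^ k).1 x = r ^ k • x := by
    intro k
    induction k with
    | zero => intro x; rw [pow_zero, pow_zero, one_smul]; rfl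
    | succ k ih =>
      intro x
      rw [pow_succ]
      show (g ^ k).1 (g.1 x) = _
      rw [h1, ih, smul_smul, pow_succ]
  apply SpecialLinearGroup.ext
  intro x
  show (g ^ (Nat.card F - 1)).1 x = x
  have := Fintype.ofFinite F
  rw [h2, Nat.card_eq_fintype_card, FiniteField.pow_card_sub_one_eq_one r hr0, one_smul]

theorem exists_ext (F : Type*) [Field F] [Finite F] {m : ℕ} (hm : 0 < m) :
    ∃ (L : Type) (_ : Field L) (_ : Algebra F L), FiniteDimensional F L ∧ finrank F L = m := by
  obtain ⟨r, hr⟩ := CharP.exists F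
  have : Fact r.Prime := ⟨CharP.char_is_prime F r⟩
  have : NeZero m := ⟨hm.ne'⟩
  exact ⟨FiniteField.Extension F r m, inferInstance, inferInstance, inferInstance, FiniteField.finrank_extension F r m⟩

/-- **the element `u`** -/
theorem goodU {n m x p : ℕ} (hp : p.Prime) (hn : n = m + x) (hm : 0 < m)
    (hd : p * (Nat.card F - 1) ∣ Nat.card F ^ m - 1) (hx : 0 < x ∨ ¬ p ∣ Nat.card F - 1) :
    GoodU (Matrix.ProjectiveSpecialLinearGroup (Fin n) F) p (Nat.card F ^ (m + x ^ 2)) := by
  classical
  obtain ⟨L, _, _, hfd, hL⟩ := exists_ext F hm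
  obtain ⟨θ, hnorm, hord, hgen⟩ := exists_theta (F := F) (L := L)
  rw [hL] at hord
  have hq : 0 < Nat.card F - 1 := by have := Finite.one_lt_card (α := F); omega
  have hpo : p ∣ orderOf θ := by
    rw [← hord, mul_comm, mul_comm (orderOf θ)] at hd
    exact Nat.dvd_of_mul_dvd_mul_left hq hd
  have hθ1 : (θ : L) ≠ 1 := by
    intro h
    have h1 : θ = 1 := Units.ext h
    rw [h1, orderOf_one] at hpo
    exact hp.one_lt.ne' (Nat.dvd_one.1 hpo)
  have hdet := det_uLin (F := F) (x := x) hnorm
  have hrank : finrank F (L × (Fin x → F)) = n := by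
    rw [Module.finrank_prod, hL, Module.finrank_fin_fun, hn]
  let b : Basis (Fin n) F (L × (Fin x → F)) := Module.finBasisOfFinrankEq F _ hrank
  refine GoodU.congr (pslEquiv b).symm ?_
  set u : SpecialLinearGroup F (L × (Fin x → F)) := ⟨uLin θ, hdet⟩ with hu
  have hfin : Finite (SpecialLinearGroup F (L × (Fin x → F))) := finite_sl
  have hupow : ∀ k : ℕ, (u ^ k).1 = uLin (θ ^ k) := by
    intro k
    rw [← uLin_pow]
    rfl
  have huo : orderOf u = orderOf θ := by
    apply Nat.dvd_antisymm
    · apply orderOf_dvd_of_pow_eq_one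
      apply Subtype.ext
      rw [hupow, pow_orderOf_eq_one]
      ext1 ⟨a, v⟩
      rw [uLin_apply, Units.val_one, one_mul]
      rfl
    · apply orderOf_dvd_of_pow_eq_one
      have h1 : (u ^ orderOf u).1 (1, 0) = (1, 0) := by rw [pow_orderOf_eq_one]; rfl
      rw [hupow, uLin_apply, mul_one] at h1
      exact Units.ext (congrArg Prod.fst h1)
  refine ⟨(u : SpecialLinearGroup F (L × (Fin x → F)) ⧸ Subgroup.center (SpecialLinearGroup F (L × (Fin x → F)))), ?_, ?_⟩
  · set k := orderOf (u : SpecialLinearGroup F (L × (Fin x → F)) ⧸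
      Subgroup.center (SpecialLinearGroup F (L × (Fin x → F)))) with hk
    have h1 : u ^ k ∈ Subgroup.center (SpecialLinearGroup F (L × (Fin x → F))) := by
      rw [← QuotientGroup.eq_one_iff]
      rw [QuotientGroup.mk_pow, hk, pow_orderOf_eq_one]
    rcases hx with hx | hx
    · have h2 : u ^ k = 1 := by
        have hx' : NeZero x := ⟨hx.ne'⟩
        refine eq_one_of_center h1 (v := (0, fun _ => 1)) ?_ ?_
        · intro h
          have h3 : (fun _ => 1 : Fin x → F) = 0 := congrArg Prod.snd h
          exact one_ne_zero (congrFun h3 ⟨0, hx⟩)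
        · rw [hupow, uLin_apply, mul_zero]
      exact (hpo.trans huo.symm.dvd).trans (orderOf_dvd_of_pow_eq_one h2)
    · have h2 := center_pow h1 (by rw [hrank]; omega)
      rw [← pow_mul] at h2
      have h3 := (hpo.trans huo.symm.dvd).trans (orderOf_dvd_of_pow_eq_one h2)
      exact ((hp.dvd_mul).1 h3).resolve_right hx
  · refine (Cfsg.Agent.H659.BFC.card_centralizer_quotient_le _ u).trans ?_
    have h1 := card_cent_le (x := x) hθ1 hgen hdet
    rwa [hL] at h1

theorem card_center_sl {n : ℕ} (hn : 1 ≤ n) :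
    Nat.card (Subgroup.center (Matrix.SpecialLinearGroup (Fin n) F)) = Nat.gcd n (Nat.card F - 1) := by
  have := Fintype.ofFinite F
  have : Nonempty (Fin n) := ⟨⟨0, by omega⟩⟩
  rw [Nat.card_congr (Matrix.SpecialLinearGroup.center_equiv_rootsOfUnity'
      (n := Fin n) (R := F) ⟨0, by omega⟩).toEquiv, rootsOfUnity_eq_ker,
      IsCyclic.card_powMonoidHom_ker, Nat.card_units, Fintype.card_fin,
      Nat.gcd_comm]

theorem card_center_V {V : Type*} [AddCommGroup V] [Module F V] {n : ℕ} (b : Basis (Fin n) F V) (hn : 1 ≤ n) :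
    Nat.card (Subgroup.center (SpecialLinearGroup F V)) = Nat.gcd n (Nat.card F - 1) := by
  rw [← card_center_sl hn]
  exact (Nat.card_congr (Subgroup.centerCongr (Matrix.SpecialLinearGroup.toLin_equiv b)).toEquiv).symm

/-- **the subgroup for `p ∣ q - 1`** -/
theorem goodH_one {n p : ℕ} (hn : 2 ≤ n) (hpq : p ∣ Nat.card F - 1) :
    GoodH (Matrix.ProjectiveSpecialLinearGroup (Fin n) F) p (Nat.gcd n (Nat.card F - 1)) (Nat.card F ^ n) := by
  let b : Basis (Fin n) F (Fin n → F) := Pi.basisFun F (Fin n)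
  refine GoodH.congr (pslEquiv b).symm ?_
  have hfin : Finite (SpecialLinearGroup F (Fin n → F)) := finite_sl
  have hrank : finrank F (Fin n → F) = n := Module.finrank_fin_fun F
  have hq : 1 < Nat.card F := Finite.one_lt_card
  have hv : (fun _ => 1 : Fin n → F) ≠ 0 := fun h => one_ne_zero (congrFun h ⟨0, by omega⟩)
  have h1 := index_map_quot (Z := Subgroup.center (SpecialLinearGroup F (Fin n → F)))
    (H := stabT (F := F) (fun _ : Fin 1 => (fun _ => 1 : Fin n → F)))
    (fun g hg hgZ => eq_one_of_center hgZ hv (hg 0))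
  rw [index_one (by rw [hrank]; exact hn) hv, hrank, card_center_V b (by omega)] at h1
  refine ⟨_, ?_, h1.le.trans (Nat.sub_le _ _)⟩
  have hd0 : 0 < Nat.gcd n (Nat.card F - 1) := Nat.gcd_pos_of_pos_left _ (by omega)
  refine Nat.dvd_of_mul_dvd_mul_right hd0 ?_
  rw [h1]
  -- `p d` divides `q ^ n - 1 = (q - 1) (1 + q + ... )`
  obtain ⟨c, hc⟩ : ∃ c, Nat.card F = c + 1 := ⟨Nat.card F - 1, by omega⟩
  have h2 : (∑ i ∈ Finset.range n, Nat.card F ^ i) * (Nat.card F - 1) = Nat.card F ^ n - 1 := by
    have h3 := geom_sum_mul_add c n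
    rw [hc, Nat.add_sub_cancel, ← h3, Nat.add_sub_cancel]
  rw [← h2, mul_comm]
  refine mul_dvd_mul ?_ hpq
  have h3 : (∑ i ∈ Finset.range n, Nat.card F ^ i) ≡ n [MOD Nat.gcd n (Nat.card F - 1)] := by
    have h4 : Nat.card F ≡ 1 [MOD Nat.gcd n (Nat.card F - 1)] := by
      have h5 : Nat.gcd n (Nat.card F - 1) ∣ Nat.card F - 1 := Nat.gcd_dvd_right _ _
      exact ((Nat.modEq_iff_dvd' hq.le).2 h5).symm
    have h6 : (∑ i ∈ Finset.range n, Nat.card F ^ i) ≡ ∑ i ∈ Finset.range n, 1 [MOD Nat.gcd n (Nat.card F - 1)] := by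
      apply Nat.ModEq.sum
      intro i _
      have := h4.pow i
      rwa [one_pow] at this
    simpa using h6
  exact (h3.dvd_iff dvd_rfl).2 (Nat.gcd_dvd_left _ _)

/-- **the subgroup for `p ∤ q - 1`** -/
theorem goodH_two {n m x p : ℕ} (hp : p.Prime) (hn : n = m + x) (hm : 0 < m) (hd : p ∣ Nat.card F ^ m - 1)
    (hpq : ¬ p ∣ Nat.card F - 1) :
    GoodH (Matrix.ProjectiveSpecialLinearGroup (Fin n) F) p 1 (Nat.card F ^ (n * (x + 1))) := by
  classical
  have := Fact.mk hp
  obtain ⟨L, _, _, hfd, hL⟩ := exists_ext F hm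
  have : Finite L := Module.finite_of_finite F
  have hcL : Nat.card L = Nat.card F ^ m := by rw [← hL]; exact Module.natCard_eq_pow_finrank
  obtain ⟨θ, hθ⟩ : ∃ θ : Lˣ, orderOf θ = p := by
    refine exists_prime_orderOf_dvd_card' p ?_
    rw [Nat.card_units, hcL]
    exact hd
  have hθp : θ ^ p = 1 := by rw [← hθ]; exact pow_orderOf_eq_one θ
  have hθ1 : (θ : L) ≠ 1 := by
    intro h
    have h1 : θ = 1 := Units.ext h
    rw [h1, orderOf_one] at hθ
    exact hp.one_lt.ne hθ
  have hnorm : Algebra.norm F (θ : L) = 1 := by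
    have := Fintype.ofFinite F
    have h1 : Algebra.norm F (θ : L) ^ p = 1 := by
      rw [← map_pow, ← Units.val_pow_eq_pow_val, hθp, Units.val_one, map_one]
    have h2 : Algebra.norm F (θ : L) ^ (Nat.card F - 1) = 1 := by
      rw [Nat.card_eq_fintype_card]
      exact FiniteField.pow_card_sub_one_eq_one _ ((Algebra.norm_ne_zero_iff).2 θ.ne_zero)
    have h3 := orderOf_dvd_of_pow_eq_one h1
    have h4 := orderOf_dvd_of_pow_eq_one h2
    have h5 : Nat.Coprime p (Nat.card F - 1) := (Nat.Prime.coprime_iff_not_dvd hp).2 hpq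
    have h6 := Nat.dvd_gcd h3 h4
    rw [h5] at h6
    exact orderOf_eq_one_iff.1 (Nat.dvd_one.1 h6)
  have hdet := det_uLin (F := F) (x := x) hnorm
  have hrank : finrank F (L × (Fin x → F)) = n := by
    rw [Module.finrank_prod, hL, Module.finrank_fin_fun, hn]
  let b : Basis (Fin n) F (L × (Fin x → F)) := Module.finBasisOfFinrankEq F _ hrank
  refine GoodH.congr (pslEquiv b).symm ?_
  set u : SpecialLinearGroup F (L × (Fin x → F)) := ⟨uLin θ, hdet⟩ with hu
  have hfin : Finite (SpecialLinearGroup F (L × (Fin x → F))) := finite_sl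
  have hup : u ^ p = 1 := by
    apply Subtype.ext
    show (uLin θ) ^ p = 1
    rw [uLin_pow, hθp]
    ext1 ⟨a, v⟩
    rw [uLin_apply, Units.val_one, one_mul]
    rfl
  -- a tuple of independent vectors
  have hω : LinearIndependent F (fun i : Fin (x + 1) => b (Fin.castLE (by omega) i)) :=
    b.linearIndependent.comp _ (Fin.castLE_injective _)
  set ω : Fin (x + 1) → L × (Fin x → F) := fun i => b (Fin.castLE (by omega) i) with hωd
  have h1 := index_map_quot (Z := Subgroup.center (SpecialLinearGroup F (L × (Fin x → F)))) (H := stabT (F := F) ω)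
    (fun g hg hgZ => eq_one_of_center hgZ (hω.ne_zero 0) (hg 0))
  have h2 : p ∣ (stabT (F := F) ω).index := by
    refine dvd_index hω (g := u) hup ?_
    intro η hη
    by_contra hcon
    push Not at hcon
    have h3 : ∀ i, (η i).1 = 0 := by
      intro i
      have h4 : uLin θ (η i) = η i := hcon i
      have h5 : (θ : L) * (η i).1 = (η i).1 := congrArg Prod.fst h4
      by_contra h0
      exact hθ1 (mul_right_cancel₀ h0 (by rw [one_mul]; exact h5))
    have h4 : LinearIndependent F (fun i => (η i).2) := by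
      rw [Fintype.linearIndependent_iff] at hη ⊢
      intro g hg i
      refine hη g ?_ i
      apply Prod.ext
      · rw [Prod.fst_sum, Prod.fst_zero]
        refine Finset.sum_eq_zero fun j _ => ?_
        rw [Prod.smul_fst, h3, smul_zero]
      · rw [Prod.snd_sum, Prod.snd_zero]
        exact hg
    have h5 := h4.fintype_card_le_finrank
    rw [Fintype.card_fin, Module.finrank_fin_fun] at h5
    omega
  refine ⟨(stabT (F := F) ω).map (QuotientGroup.mk' (Subgroup.center (SpecialLinearGroup F (L × (Fin x → F))))), ?_, ?_⟩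
  · have h3 : ¬ p ∣ Nat.card (Subgroup.center (SpecialLinearGroup F (L × (Fin x → F)))) := by
      rw [card_center_V b (by omega)]
      exact fun h => hpq (h.trans (Nat.gcd_dvd_right _ _))
    rw [← h1] at h2
    exact ((hp.dvd_mul).1 h2).resolve_right h3
  · rw [mul_one]
    have h3 := index_le (F := F) ω
    rw [hrank] at h3
    refine le_trans ?_ h3
    rw [← h1]
    exact Nat.le_mul_of_pos_right _ Nat.card_pos

end Main

section Emb

variable {F W U : Type*} [Field F] [AddCommGroup W] [Module F W] [FiniteDimensional F W] [AddCommGroup U]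
  [Module F U] [FiniteDimensional F U]

/-- `g ↦ (g, 1)` -/
noncomputable def prodHom : SpecialLinearGroup F W →* SpecialLinearGroup F (W × U) where
  toFun g := ⟨LinearEquiv.prodCongr g.1 (LinearEquiv.refl F U), by
    rw [← Units.val_inj, LinearEquiv.coe_det, Units.val_one]
    have e : ((LinearEquiv.prodCongr g.1 (LinearEquiv.refl F U) : (W × U) ≃ₗ[F] (W × U)) : (W × U) →ₗ[F] (W × U)) =
        LinearMap.prodMap (g.1 : W →ₗ[F] W) LinearMap.id := LinearMap.ext fun ⟨a, v⟩ => rfl
    rw [e, LinearMap.det_prodMap, LinearMap.det_id, mul_one, ← LinearEquiv.coe_det, g.2, Units.val_one]⟩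
  map_one' := by
    apply SpecialLinearGroup.ext
    rintro ⟨a, v⟩
    rfl
  map_mul' g h := by
    apply SpecialLinearGroup.ext
    rintro ⟨a, v⟩
    rfl

theorem prodHom_apply (g : SpecialLinearGroup F W) (a : W) (v : U) :
    (prodHom (U := U) g).1 (a, v) = (g.1 a, v) := rfl

/-- `SL_m(F)` embeds in `PSL_n(F)` for `m < n` -/
theorem exists_emb {F : Type*} [Field F] {m n : ℕ} (hmn : m < n) :
    ∃ f : Matrix.SpecialLinearGroup (Fin m) F →* Matrix.ProjectiveSpecialLinearGroup (Fin n) F, Function.Injective f := by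
  have hrank : finrank F ((Fin m → F) × (Fin (n - m) → F)) = n := by
    rw [Module.finrank_prod, Module.finrank_fin_fun, Module.finrank_fin_fun]
    omega
  let b : Basis (Fin n) F ((Fin m → F) × (Fin (n - m) → F)) := Module.finBasisOfFinrankEq F _ hrank
  let f1 : Matrix.SpecialLinearGroup (Fin m) F →* SpecialLinearGroup F (Fin m → F) :=
    (Matrix.SpecialLinearGroup.toLin'_equiv).toMonoidHom
  let f2 := QuotientGroup.mk' (Subgroup.center (SpecialLinearGroup F ((Fin m → F) × (Fin (n - m) → F))))
  refine ⟨(pslEquiv b).symm.toMonoidHom.comp (f2.comp ((prodHom (U := Fin (n - m) → F)).comp f1)), ?_⟩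
  refine (pslEquiv b).symm.injective.comp ?_
  rw [injective_iff_map_eq_one]
  intro g hg
  have h1 : prodHom (U := Fin (n - m) → F) (f1 g) ∈
      Subgroup.center (SpecialLinearGroup F ((Fin m → F) × (Fin (n - m) → F))) :=
    (QuotientGroup.eq_one_iff _).1 hg
  have h2 : prodHom (U := Fin (n - m) → F) (f1 g) = 1 := by
    refine eq_one_of_center h1 (v := (0, fun _ => 1)) ?_ ?_
    · intro h
      have h3 : (fun _ => 1 : Fin (n - m) → F) = 0 := congrArg Prod.snd h
      exact one_ne_zero (congrFun h3 ⟨0, by omega⟩)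
    · rw [prodHom_apply, map_zero]
  have h3 : f1 g = 1 := by
    apply SpecialLinearGroup.ext
    intro x
    have h4 : (prodHom (U := Fin (n - m) → F) (f1 g)).1 (x, 0) = (x, 0) := by rw [h2]; rfl
    rw [prodHom_apply] at h4
    exact congrArg Prod.fst h4
  exact (Matrix.SpecialLinearGroup.toLin'_equiv (n := Fin m) (R := F)).injective (by
    rw [map_one]; exact h3)

end Emb

end Cfsg.Agent.H978.BD
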