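import Mathlib

/-!
# Elements of `SL_n(F)` with small centralizers (helper978, for S4932)

`V = L × (Fin x → F)`, `L / F` of degree `m`; `u = (θ, 1)` with `θ` of norm 1 generating `L`.
-/

set_option autoImplicit false

namespace Cfsg.Agent.H978.BD

open Module

section Abs

variable {F L : Type*} [Field F] [Field L] [Algebra F L] {x : ℕ}

/-- the element `(θ, 1)` -/
noncomputable def uLin (θ : Lˣ) : (L × (Fin x → F)) ≃ₗ[F] (L × (Fin x → F)) :=
  LinearEquiv.prodCongr (DistribMulAction.toLinearEquiv F L θ) (LinearEquiv.refl F _)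

theorem uLin_apply (θ : Lˣ) (a : L) (v : Fin x → F) : uLin θ (a, v) = ((θ : L) * a, v) := rfl

/-- the elements commuting with `u` -/
theorem comm_fst {θ : Lˣ} (hθ : (θ : L) ≠ 1) (hgen : Algebra.adjoin F {(θ : L)} = ⊤)
    {g : (L × (Fin x → F)) →ₗ[F] (L × (Fin x → F))} (hg : ∀ y, g (uLin θ y) = uLin θ (g y)) (a : L) (v : Fin x → F) :
    g (a, v) = (a * (g (1, 0)).1, (g (0, v)).2) := by
  have h1 : ∀ v, (g (0, v)).1 = 0 := by
    intro v
    have h := congrArg Prod.fst (hg (0, v))
    rw [uLin_apply, mul_zero] at h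
    have h' : (g (0, v)).1 = (θ : L) * (g (0, v)).1 := h
    by_contra h0
    exact hθ (mul_right_cancel₀ h0 (by rw [one_mul]; exact h'.symm))
  have h2 : ∀ a : L, (g (a, 0)).2 = 0 := by
    intro a
    have h3 : ∀ a : L, (g ((θ : L) * a, 0)).2 = (g (a, 0)).2 := by
      intro a
      have h := congrArg Prod.snd (hg (a, 0))
      rw [uLin_apply] at h
      exact h
    have hθ1 : (θ : L) - 1 ≠ 0 := sub_ne_zero.2 hθ
    have h4 := h3 (((θ : L) - 1)⁻¹ * a)
    have h5 : ((a, 0) : L × (Fin x → F)) = ((θ : L) * (((θ : L) - 1)⁻¹ * a), 0) - ((((θ : L) - 1)⁻¹ * a), 0) := by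
      rw [Prod.mk_sub_mk, sub_zero]
      congr 1
      field_simp
    rw [h5, map_sub, Prod.snd_sub, h4, sub_self]
  have h3 : ∀ a : L, (g (a, 0)).1 = a * (g (1, 0)).1 := by
    let A : Subalgebra F L :=
      { carrier := {a | ∀ y : L, (g (a * y, 0)).1 = a * (g (y, 0)).1}
        mul_mem' := by
          intro a b ha hb y
          rw [mul_assoc, ha, hb, mul_assoc]
        add_mem' := by
          intro a b ha hb y
          have e : (((a + b) * y, 0) : L × (Fin x → F)) = (a * y, 0) + (b * y, 0) := by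
            rw [Prod.mk_add_mk, add_zero, add_mul]
          rw [e, map_add, Prod.fst_add, ha, hb, add_mul]
        algebraMap_mem' := by
          intro c y
          have e : ((algebraMap F L c * y, 0) : L × (Fin x → F)) = c • (y, 0) := by
            rw [Prod.smul_mk, smul_zero, Algebra.smul_def]
          rw [e, map_smul, Prod.smul_fst, Algebra.smul_def] }
    have hA : (θ : L) ∈ A := by
      intro y
      have h := congrArg Prod.fst (hg (y, 0))
      rw [uLin_apply] at h
      exact h
    have hA' : A = ⊤ := by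
      rw [eq_top_iff, ← hgen]
      exact Algebra.adjoin_le (by rintro _ rfl; exact hA)
    intro a
    have h4 : a ∈ A := by rw [hA']; trivial
    have h5 := h4 1
    rwa [mul_one] at h5
  have e : ((a, v) : L × (Fin x → F)) = (a, 0) + (0, v) := by
    rw [Prod.mk_add_mk, add_zero, zero_add]
  rw [e, map_add]
  refine Prod.ext ?_ ?_
  · rw [Prod.fst_add, h1, add_zero]; exact h3 a
  · rw [Prod.snd_add, h2, zero_add]

/-- the centralizer of `u` is small -/
theorem card_cent_le [Finite F] [FiniteDimensional F L] {θ : Lˣ} (hθ : (θ : L) ≠ 1)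
    (hgen : Algebra.adjoin F {(θ : L)} = ⊤) (hdet : LinearEquiv.det (uLin (F := F) (x := x) θ) = 1) :
    Nat.card (Subgroup.centralizer ({⟨uLin θ, hdet⟩} : Set (SpecialLinearGroup F (L × (Fin x → F))))) ≤
      Nat.card F ^ (finrank F L + x ^ 2) := by
  classical
  have : Finite L := Module.finite_of_finite F
  have hE : Nat.card ((Fin x → F) →ₗ[F] (Fin x → F)) = Nat.card F ^ (x ^ 2) := by
    rw [Module.natCard_eq_pow_finrank (K := F), Module.finrank_linearMap, Module.finrank_fin_fun, pow_two]
  have hL : Nat.card L = Nat.card F ^ finrank F L := Module.natCard_eq_pow_finrank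
  have : Finite ((Fin x → F) →ₗ[F] (Fin x → F)) := Module.finite_of_finite F
  rw [pow_add, ← hL, ← hE, ← Nat.card_prod]
  have key : ∀ g ∈ Subgroup.centralizer ({⟨uLin θ, hdet⟩} : Set (SpecialLinearGroup F (L × (Fin x → F)))),
      ∀ y, (g.1 : (L × (Fin x → F)) →ₗ[F] (L × (Fin x → F))) (uLin θ y) =
        uLin θ ((g.1 : (L × (Fin x → F)) →ₗ[F] (L × (Fin x → F))) y) := by
    intro g hg y
    rw [Subgroup.mem_centralizer_singleton_iff] at hg
    exact congrArg (fun z : SpecialLinearGroup F (L × (Fin x → F)) => z.1 y) hg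
  refine Nat.card_le_card_of_injective (fun g => ((g.1.1 (1, 0)).1,
    (LinearMap.snd F L (Fin x → F)).comp ((g.1.1 : (L × (Fin x → F)) →ₗ[F] (L × (Fin x → F))).comp
      (LinearMap.inr F L (Fin x → F))))) ?_
  intro g h hgh
  apply Subtype.ext
  apply SpecialLinearGroup.ext
  rintro ⟨a, v⟩
  have h1 := comm_fst hθ hgen (key _ g.2) a v
  have h2 := comm_fst hθ hgen (key _ h.2) a v
  have h3 := congrArg Prod.fst hgh
  have h4 := congrArg (fun z => z.2 v) hgh
  have h3' : (g.1.1 (1, 0)).1 = (h.1.1 (1, 0)).1 := h3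
  have h4' : (g.1.1 (0, v)).2 = (h.1.1 (0, v)).2 := h4
  have h1' : g.1.1 (a, v) = (a * (g.1.1 (1, 0)).1, (g.1.1 (0, v)).2) := h1
  have h2' : h.1.1 (a, v) = (a * (h.1.1 (1, 0)).1, (h.1.1 (0, v)).2) := h2
  show g.1.1 (a, v) = h.1.1 (a, v)
  rw [h1', h2', h3', h4']

theorem uLin_pow (θ : Lˣ) (k : ℕ) : (uLin (F := F) (x := x) θ) ^ k = uLin (θ ^ k) := by
  induction k with
  | zero =>
    rw [pow_zero, pow_zero]
    ext1 ⟨a, v⟩
    rw [uLin_apply, Units.val_one, one_mul]
    rfl
  | succ k ih =>
    rw [pow_succ, ih, pow_succ]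
    ext1 ⟨a, v⟩
    show uLin (θ ^ k) (uLin θ (a, v)) = _
    rw [uLin_apply, uLin_apply, uLin_apply, Units.val_mul, mul_assoc]

theorem det_uLin [FiniteDimensional F L] {θ : Lˣ} (h : Algebra.norm F (θ : L) = 1) :
    LinearEquiv.det (uLin (F := F) (x := x) θ) = 1 := by
  rw [← Units.val_inj, LinearEquiv.coe_det, Units.val_one, ← h, Algebra.norm_apply]
  have e : ((uLin (F := F) (x := x) θ : (L × (Fin x → F)) ≃ₗ[F] (L × (Fin x → F))) :
      (L × (Fin x → F)) →ₗ[F] (L × (Fin x → F))) = LinearMap.prodMap (Algebra.lmul F L (θ : L)) LinearMap.id := by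
    exact LinearMap.ext fun ⟨a, v⟩ => rfl
  rw [e, LinearMap.det_prodMap, LinearMap.det_id, mul_one]

end Abs

section Fin

variable {F : Type*} [Field F] [Finite F]

/-- an element of norm 1 generating the extension, of order `(q ^ m - 1) / (q - 1)` -/
theorem exists_theta {L : Type*} [Field L] [Algebra F L] [FiniteDimensional F L] :
    ∃ θ : Lˣ, Algebra.norm F (θ : L) = 1 ∧ orderOf θ * (Nat.card F - 1) = Nat.card F ^ finrank F L - 1 ∧
      Algebra.adjoin F {(θ : L)} = ⊤ := by
  classical
  have : Finite L := Module.finite_of_finite F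
  have hq : 1 < Nat.card F := Finite.one_lt_card
  have hL : Nat.card L = Nat.card F ^ finrank F L := Module.natCard_eq_pow_finrank
  have hm : 0 < finrank F L := finrank_pos
  obtain ⟨ξ, hξ⟩ := IsCyclic.exists_generator (α := Lˣ)
  have hξ' : orderOf ξ = Nat.card F ^ finrank F L - 1 := by
    rw [orderOf_eq_card_of_forall_mem_zpowers hξ, Nat.card_units, hL]
  have hdvd : (Nat.card F - 1) ∣ Nat.card F ^ finrank F L - 1 := by
    have := Nat.sub_dvd_pow_sub_pow (Nat.card F) 1 (finrank F L)
    rwa [one_pow] at this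
  have hpos : 0 < Nat.card F ^ finrank F L - 1 := by
    have : 1 < Nat.card F ^ finrank F L := Nat.one_lt_pow hm.ne' hq
    omega
  have ho : orderOf (ξ ^ (Nat.card F - 1)) * (Nat.card F - 1) = Nat.card F ^ finrank F L - 1 := by
    rw [orderOf_pow, hξ', Nat.gcd_eq_right hdvd, Nat.div_mul_cancel hdvd]
  refine ⟨ξ ^ (Nat.card F - 1), ?_, ho, ?_⟩
  · rw [Units.val_pow_eq_pow_val, map_pow]
    have := Fintype.ofFinite F
    rw [Nat.card_eq_fintype_card]
    exact FiniteField.pow_card_sub_one_eq_one _ ((Algebra.norm_ne_zero_iff).2 ξ.ne_zero)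
  · set θ := ξ ^ (Nat.card F - 1) with hθ
    -- the subalgebra has more than `q ^ (m - 1)` elements
    have h1 : orderOf θ < Nat.card (Algebra.adjoin F {(θ : L)}) := by
      have hmem : (θ : L) ∈ Algebra.adjoin F {(θ : L)} := Algebra.self_mem_adjoin_singleton F _
      let f : Option (Fin (orderOf θ)) → Algebra.adjoin F {(θ : L)} := fun i =>
        match i with
        | none => 0
        | some i => ⟨(θ : L) ^ (i : ℕ), pow_mem hmem _⟩
      have hf : Function.Injective f := by
        rintro (_ | i) (_ | j) hij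
        · rfl
        · exfalso
          have h := congrArg Subtype.val hij
          exact pow_ne_zero _ θ.ne_zero h.symm
        · exfalso
          have h := congrArg Subtype.val hij
          exact pow_ne_zero _ θ.ne_zero h
        · have h : (θ : L) ^ (i : ℕ) = (θ : L) ^ (j : ℕ) := congrArg Subtype.val hij
          rw [← Units.val_pow_eq_pow_val, ← Units.val_pow_eq_pow_val, Units.val_inj] at h
          have h2 := pow_injOn_Iio_orderOf (x := θ) (Set.mem_Iio.2 i.2) (Set.mem_Iio.2 j.2) h
          rw [Fin.ext h2]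
      have h2 := Nat.card_le_card_of_injective f hf
      rw [Nat.card_eq_fintype_card, Fintype.card_option, Fintype.card_fin] at h2
      omega
    have h2 : Nat.card (Algebra.adjoin F {(θ : L)}) = Nat.card F ^ finrank F (Algebra.adjoin F {(θ : L)}) :=
      Module.natCard_eq_pow_finrank
    rw [h2] at h1
    have h3 : Nat.card F ^ (finrank F L - 1) ≤ orderOf θ := by
      by_contra hlt
      push Not at hlt
      have h4 : (orderOf θ + 1) * (Nat.card F - 1) ≤ Nat.card F ^ (finrank F L - 1) * (Nat.card F - 1) :=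
        Nat.mul_le_mul_right _ hlt
      have h5 : Nat.card F ^ (finrank F L - 1) * (Nat.card F - 1) + Nat.card F ^ (finrank F L - 1) =
          Nat.card F ^ finrank F L := by
        obtain ⟨m, hm'⟩ : ∃ m, finrank F L = m + 1 := ⟨finrank F L - 1, by omega⟩
        obtain ⟨c, hc⟩ : ∃ c, Nat.card F = c + 1 := ⟨Nat.card F - 1, by omega⟩
        rw [hm', hc, Nat.add_sub_cancel, Nat.add_sub_cancel, pow_succ]
        ring
      rw [add_mul, one_mul, ho] at h4
      have h6 : 0 < Nat.card F ^ (finrank F L - 1) := Nat.pow_pos (by omega)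
      omega
    have h4 : Nat.card F ^ (finrank F L - 1) < Nat.card F ^ finrank F (Algebra.adjoin F {(θ : L)}) := h3.trans_lt h1
    have h5 := (Nat.pow_lt_pow_iff_right hq).1 h4
    have h6 : finrank F (Subalgebra.toSubmodule (Algebra.adjoin F {(θ : L)})) = finrank F L := by
      refine le_antisymm (Submodule.finrank_le _) ?_
      have : finrank F (Subalgebra.toSubmodule (Algebra.adjoin F {(θ : L)})) =
          finrank F (Algebra.adjoin F {(θ : L)}) := rfl
      rw [this]
      omega
    have h7 := Submodule.eq_top_of_finrank_eq h6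
    rw [← Algebra.toSubmodule_eq_top]
    exact h7

end Fin

end Cfsg.Agent.H978.BD
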